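import Cfsg.Agent.H50.HerMain
import Mathlib.FieldTheory.Finite.GaloisField

/-!
# S3691, ALPHA-S: the `p`-part of a group of semilinear maps of a field of order `p ^ n`
-/

set_option autoImplicit false

namespace Cfsg.Agent.H72.Rg

open Module Cfsg.Agent.H50.Her

universe u

/-- A field of order `p ^ n` has at most `n` automorphisms. -/
theorem card_ringEquiv_le {p n : ℕ} [Fact p.Prime] {F : Type*} [Field F] [Fintype F] (hF : Nat.card F = p ^ n) :
    Nat.card (F ≃+* F) ≤ n := by
  classical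
  have hpp : p.Prime := Fact.out
  obtain ⟨l, hl⟩ := CharP.exists F
  have hlp : l.Prime := CharP.char_is_prime F l
  have : Fact l.Prime := ⟨hlp⟩
  obtain ⟨k, -, hk⟩ := FiniteField.card F l
  have hlp' : l = p := by
    have h1 : l ∣ p ^ n := by
      rw [← hF, Nat.card_eq_fintype_card, hk]
      exact dvd_pow_self l k.2.ne'
    exact (Nat.prime_dvd_prime_iff_eq hlp hpp).1 (hlp.dvd_of_dvd_pow h1)
  subst hlp'
  letI : Algebra (ZMod l) F := ZMod.algebra F l
  have hfr : finrank (ZMod l) F = n := by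
    have h1 : Nat.card F = Nat.card (ZMod l) ^ finrank (ZMod l) F := Module.natCard_eq_pow_finrank
    rw [Nat.card_zmod, hF] at h1
    exact (Nat.pow_right_injective hlp.two_le h1).symm
  have hfin : Finite (F ≃ₐ[ZMod l] F) := inferInstance
  let f : (F ≃+* F) → (F ≃ₐ[ZMod l] F) := fun σ => AlgEquiv.ofRingEquiv (f := σ) (fun r => by
    have h : (σ : F →+* F).comp (algebraMap (ZMod l) F) = algebraMap (ZMod l) F := Subsingleton.elim _ _
    exact RingHom.congr_fun h r)
  have hf : Function.Injective f := by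
    intro σ τ h
    apply RingEquiv.ext
    intro x
    exact AlgEquiv.congr_fun h x
  calc Nat.card (F ≃+* F) ≤ Nat.card (F ≃ₐ[ZMod l] F) := Nat.card_le_card_of_injective f hf
    _ ≤ finrank (ZMod l) F := by
      rw [Nat.card_eq_fintype_card]
      exact AlgEquiv.card_le
    _ = n := hfr

/-- ALPHA-S -/
theorem semi_bound {p n : ℕ} [Fact p.Prime] {U : Type u} [AddCommGroup U] [Module (ZMod p) U] [Finite U] [Nontrivial U]
    (hU : Nat.card U = p ^ n) (Γ : Subgroup (U ≃ₗ[ZMod p] U)) (h : SemiOut p U Γ) :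
    p ^ (Nat.card Γ).factorization p ≤ n := by
  classical
  have hpp : p.Prime := Fact.out
  obtain ⟨F, iF, iFt, e, he⟩ := h
  have hFc : Nat.card F = p ^ n := by rw [← hU]; exact (Nat.card_congr e.toEquiv).symm
  choose! c σ hcs using he
  have hc0 : ∀ g ∈ Γ, c g ≠ 0 := by
    intro g hg h0
    obtain ⟨v, hv⟩ := exists_ne (0 : U)
    have h1 := hcs g hg v
    rw [h0, zero_mul] at h1
    have h2 : g v = 0 := e.injective (by rw [h1, map_zero])
    exact hv (g.injective (by rw [h2, map_zero]))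
  have hc1 : ∀ g ∈ Γ, e (g (e.symm 1)) = c g := by
    intro g hg
    rw [hcs g hg, AddEquiv.apply_symm_apply, map_one, mul_one]
  have hcmul : ∀ g ∈ Γ, ∀ h ∈ Γ, c (g * h) = c g * σ g (c h) := by
    intro g hg h hh
    rw [← hc1 (g * h) (Γ.mul_mem hg hh), ← hc1 h hh]
    exact hcs g hg (h (e.symm 1))
  have hσmul : ∀ g ∈ Γ, ∀ h ∈ Γ, σ (g * h) = σ g * σ h := by
    intro g hg h hh
    apply RingEquiv.ext
    intro x
    have h1 := hcs (g * h) (Γ.mul_mem hg hh) (e.symm x)
    have h2 : e ((g * h) (e.symm x)) = c g * σ g (c h * σ h x) := by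
      have h3 := hcs g hg (h (e.symm x))
      rw [hcs h hh, AddEquiv.apply_symm_apply] at h3
      exact h3
    rw [h2, AddEquiv.apply_symm_apply, hcmul g hg h hh, map_mul, ← mul_assoc] at h1
    have h4 : c g * σ g (c h) ≠ 0 := mul_ne_zero (hc0 g hg) (fun h5 => hc0 h hh ((map_eq_zero (σ g)).1 h5))
    exact (mul_left_cancel₀ h4 h1).symm
  let φ : Γ →* (F ≃+* F) := MonoidHom.mk' (fun g => σ g.1) (fun a b => hσmul a.1 a.2 b.1 b.2)
  have hφ : ∀ g : Γ, φ g = σ g.1 := fun _ => rfl
  -- the kernel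
  let ψ : φ.ker →* Fˣ := MonoidHom.mk' (fun g => Units.mk0 (c g.1.1) (hc0 _ g.1.2)) (fun a b => by
    apply Units.ext
    show c (a.1.1 * b.1.1) = c a.1.1 * c b.1.1
    rw [hcmul _ a.1.2 _ b.1.2]
    have h1 : σ a.1.1 = 1 := a.2
    rw [h1]
    rfl)
  have hψ : Function.Injective ψ := by
    rw [injective_iff_map_eq_one]
    intro a ha
    have h1 : σ a.1.1 = 1 := a.2
    have h2 : c a.1.1 = 1 := congrArg Units.val ha
    apply Subtype.ext
    apply Subtype.ext
    apply LinearEquiv.ext
    intro v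
    apply e.injective
    rw [hcs _ a.1.2, h1, h2, one_mul]
    rfl
  have hfF : Finite F := inferInstance
  have hker : (Nat.card φ.ker).Coprime p := by
    have h1 : Nat.card φ.ker ∣ Nat.card Fˣ := Subgroup.card_dvd_of_injective ψ hψ
    rw [Nat.card_units, hFc] at h1
    have hn : n ≠ 0 := by
      rintro rfl
      have := Nat.card_eq_fintype_card (α := F)
      have h2 : 1 < Fintype.card F := Fintype.one_lt_card
      rw [← this, hFc] at h2
      simp at h2
    have h2 : (p ^ n - 1).Coprime p := by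
      rw [Nat.coprime_comm, Nat.Prime.coprime_iff_not_dvd hpp]
      intro h3
      have h4 : p ∣ p ^ n := dvd_pow_self p hn
      have h5 : 1 ≤ p ^ n := Nat.one_le_pow _ _ hpp.pos
      have h6 : p ∣ 1 := by
        have := Nat.dvd_sub h4 h3
        rwa [Nat.sub_sub_self h5] at this
      exact hpp.one_lt.ne' (Nat.dvd_one.1 h6)
    exact Nat.Coprime.coprime_dvd_left h1 h2
  have hcard : Nat.card Γ = Nat.card φ.ker * Nat.card φ.range := by
    rw [← Nat.card_congr (QuotientGroup.quotientKerEquivRange φ).toEquiv, mul_comm]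
    exact Subgroup.card_eq_card_quotient_mul_card_subgroup φ.ker
  have hdvd : p ^ (Nat.card Γ).factorization p ∣ Nat.card φ.range := by
    have h1 : p ^ (Nat.card Γ).factorization p ∣ Nat.card φ.ker * Nat.card φ.range := by
      rw [← hcard]
      exact Nat.ordProj_dvd _ _
    exact Nat.Coprime.dvd_of_dvd_mul_left (Nat.Coprime.pow_left _ hker.symm) h1
  have hfR : Finite (F ≃+* F) := Finite.of_injective (fun σ : F ≃+* F => (σ : F → F)) (fun a b h => RingEquiv.ext (congrFun h))
  have hpos : 0 < Nat.card φ.range := Nat.card_pos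
  calc p ^ (Nat.card Γ).factorization p ≤ Nat.card φ.range := Nat.le_of_dvd hpos hdvd
    _ ≤ Nat.card (F ≃+* F) := Nat.card_le_card_of_injective _ (Subtype.val_injective)
    _ ≤ n := card_ringEquiv_le hFc

end Cfsg.Agent.H72.Rg
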